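import Cfsg.Agent.IQ.Quat
import Cfsg.Agent.GW.Basic
import Cfsg.Agent.S0206

/-! Project IQ: an element acting as a 3-cycle on a quaternion subgroup of order 8. -/

set_option autoImplicit false

namespace Cfsg.Agent.IQ

universe u

section dihedral

open Subgroup Cfsg Cfsg.Agent.H49 Cfsg.Agent.GW

variable {G : Type u} [Group G] [Finite G]

theorem g3_move (hD : Dihed G) (h2 : ∀ H : Subgroup G, H.index ≠ 2) {t s : G} (ht : orderOf t = 2)
    (hs : Refl t s) : ∃ n ∈ 𝒩(four t s), n * t * n⁻¹ ≠ t := by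
  have hV := isPi_of_isPGroup Nat.prime_two (hs.isPGroup_four ht)
  have h4 : four t s ≤ 𝒞[t] ⊓ 𝒞[s] := by
    rw [← Refl.cent_four_eq]; exact abelian_iff.1 (hs.four_comm ht)
  obtain ⟨T, hT, hVT⟩ := exists_sylowOf_ge hV (h4.trans inf_le_right)
  rcases hVT.eq_or_lt with e | hlt
  · rw [← e] at hT
    obtain ⟨g, hg⟩ := hD.isConj_of_index h2 ht hs.inv
    have h1 : IsSylowOf 2 (cj g (four t s)) 𝒞[s] := by
      refine hT.of_card_le ?_ (hV.cj g) (card_cj _ _).ge
      have := cj_mono g (h4.trans inf_le_left)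
      rwa [cj_cent1, hg] at this
    obtain ⟨c, hc, e'⟩ := sylowOf_conj h1 hT
    refine ⟨c * g, mem_norm_iff_cj.2 (by rw [cj_mul, e']), ?_⟩
    have : c * g * t * (c * g)⁻¹ = s := by
      calc c * g * t * (c * g)⁻¹ = c * (g * t * g⁻¹) * c⁻¹ := by group
        _ = s := by rw [hg, mem_cent1.1 hc, mul_inv_cancel_right]
    rw [this]; exact hs.ne
  · have h1 := lt_inf_norm_of_nilpotent hT.pi.nilpotent hlt
    by_contra hc
    push Not at hc
    refine h1.not_ge (hD.two_le_four ht hs ((hT.pi.inf_left _).isPGroup Nat.prime_two) ?_)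
    exact le_inf (fun n hn => mem_cent1.2 (mul_inv_eq_iff_eq_mul.1 (hc n hn.2)))
      (inf_le_left.trans hT.le)

theorem g3_trans (hD : Dihed G) (h2 : ∀ H : Subgroup G, H.index ≠ 2) {t s : G} (ht : orderOf t = 2)
    (hs : Refl t s) : ∃ g : G, g * t * g⁻¹ = s ∧ g * s * g⁻¹ = t * s := by
  have tt := mul_self_of_inv ht
  have ss := mul_self_of_inv hs.inv
  have hc := hs.comm
  have e1 : four s t = four t s := sup_comm _ _
  have e2 : four (t * s) t = four t s := by
    refine le_antisymm (four_le (mul_mem (left_mem_four _ _) (right_mem_four _ _))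
      (left_mem_four _ _)) (four_le (right_mem_four _ _) ?_)
    have : s = t * s * t := by rw [hc, mul_assoc, tt, mul_one]
    conv_rhs => rw [this]
    exact mul_mem (left_mem_four _ _) (right_mem_four _ _)
  obtain ⟨a, ha, ha'⟩ := g3_move hD h2 ht hs
  obtain ⟨b, hb, hb'⟩ := g3_move hD h2 hs.inv (hs.symm ht)
  obtain ⟨c, hc', hc''⟩ := g3_move hD h2 (hs.mul_inv ht) ((hs.mul ht).symm ht)
  rw [e1] at hb
  rw [e2] at hc'
  have m : ∀ n : G, n * (t * s) * n⁻¹ = (n * t * n⁻¹) * (n * s * n⁻¹) := fun n => by group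
  have m2 : ∀ n k x : G, n * k * x * (n * k)⁻¹ = n * (k * x * k⁻¹) * n⁻¹ := fun n k x => by group
  have r1 : t * (t * s) = s := by rw [← mul_assoc, tt, one_mul]
  have r3 : t * s * t = s := by rw [hc, mul_assoc, tt, mul_one]
  have sq : ∀ n : G, n * t * n⁻¹ = t * s → n * s * n⁻¹ = t →
      ∃ g : G, g * t * g⁻¹ = s ∧ g * s * g⁻¹ = t * s := fun n h1 h2 =>
    ⟨n * n, by rw [m2, h1, m, h1, h2, r3], by rw [m2, h2, h1]⟩
  have p1 : ∀ n k : G, n * t * n⁻¹ = s → n * s * n⁻¹ = t → k * t * k⁻¹ = t * s →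
      k * s * k⁻¹ = s → ∃ g : G, g * t * g⁻¹ = s ∧ g * s * g⁻¹ = t * s := fun n k h1 h2 h3 h4 =>
    ⟨k * n, by rw [m2, h1, h4], by rw [m2, h2, h3]⟩
  have p2 : ∀ n k : G, n * t * n⁻¹ = s → n * s * n⁻¹ = t → k * t * k⁻¹ = t →
      k * s * k⁻¹ = t * s → ∃ g : G, g * t * g⁻¹ = s ∧ g * s * g⁻¹ = t * s :=
    fun n k h1 h2 h3 h4 => ⟨n * k, by rw [m2, h3, h1], by rw [m2, h4, m, h1, h2, hc]⟩
  have p3 : ∀ n k : G, n * t * n⁻¹ = t * s → n * s * n⁻¹ = s → k * t * k⁻¹ = t →
      k * s * k⁻¹ = t * s → ∃ g : G, g * t * g⁻¹ = s ∧ g * s * g⁻¹ = t * s :=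
    fun n k h1 h2 h3 h4 => ⟨k * n, by rw [m2, h1, m, h3, h4, r1], by rw [m2, h2, h4]⟩
  rcases hs.act_cases ht ha with ⟨a1, a2⟩ | ⟨a1, a2⟩ | ⟨a1, a2⟩ | ⟨a1, a2⟩ | ⟨a1, a2⟩ | ⟨a1, a2⟩
  · exact absurd a1 ha'
  · exact absurd a1 ha'
  · rcases hs.act_cases ht hc' with ⟨c1, c2⟩ | ⟨c1, c2⟩ | ⟨c1, c2⟩ | ⟨c1, c2⟩ | ⟨c1, c2⟩ | ⟨c1, c2⟩
    · exact absurd (by rw [m, c1, c2]) hc''
    · exact p2 a c a1 a2 c1 c2
    · exact absurd (by rw [m, c1, c2, hc]) hc''
    · exact ⟨c, c1, c2⟩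
    · exact p1 a c a1 a2 c1 c2
    · exact sq c c1 c2
  · exact ⟨a, a1, a2⟩
  · rcases hs.act_cases ht hb with ⟨c1, c2⟩ | ⟨c1, c2⟩ | ⟨c1, c2⟩ | ⟨c1, c2⟩ | ⟨c1, c2⟩ | ⟨c1, c2⟩
    · exact absurd c2 hb'
    · exact p3 a b a1 a2 c1 c2
    · exact p1 b a c1 c2 a1 a2
    · exact ⟨b, c1, c2⟩
    · exact absurd c2 hb'
    · exact sq b c1 c2
  · exact sq a a1 a2

theorem g3_idx (hp : _root_.commutator G = ⊤) (H : Subgroup G) : H.index ≠ 2 := by
  intro h
  have h1 : _root_.commutator G ≤ H := commutator_le.2 fun a _ b _ => by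
    simp only [commutatorElement_def, mul_mem_iff_of_index_two h, inv_mem_iff]
    tauto
  rw [hp, top_le_iff] at h1
  rw [h1, index_top] at h
  omega

end dihedral

open Subgroup Cfsg.Agent.H44 Cfsg.Agent.H59
open Cfsg.Agent.H42 (SylIn)

variable {G : Type u} [Group G] [Finite G]

/-- the quotient of `J` by its central involution -/
theorem Good.exists_quo {J : Subgroup G} {z : G} (g : Good J z) :
    ∃ (H : Type u) (_ : Group H) (_ : Finite H) (π : J →* H), Function.Surjective π ∧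
      ∀ c : J, π c = 1 ↔ (c : G) = 1 ∨ (c : G) = z := by
  let z' : J := ⟨z, g.mem⟩
  have m : ∀ c : J, c ∈ zpowers z' ↔ (c : G) = 1 ∨ (c : G) = z := fun c => by
    rw [GW.mem_zpowers_of_inv (GW.inv_of_mul_self (Subtype.ext g.zz) fun e => g.z1 (congrArg Subtype.val e))]
    exact or_congr Subtype.ext_iff Subtype.ext_iff
  haveI : (zpowers z').Normal := ⟨fun c hc d => by
    rw [m] at hc ⊢
    rcases hc with e | e
    · left; simp [e]
    · right
      change (d : G) * c * (d : G)⁻¹ = z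
      rw [e, g.cz d.2, mul_inv_cancel_right]⟩
  exact ⟨J ⧸ zpowers z', inferInstance, inferInstance, QuotientGroup.mk' _, QuotientGroup.mk'_surjective _,
    fun c => (QuotientGroup.eq_one_iff c).trans (m c)⟩

theorem Good.g3 {J : Subgroup G} {z x n : G} (g : Good J z) (hx : x ∈ J) (hn : n ∈ J)
    (xx : x * x = z) (nn : n * n = z) (inv : n * x * n⁻¹ = x⁻¹) :
    ∃ ζ ∈ J, (ζ * x * ζ⁻¹ = n ∨ ζ * x * ζ⁻¹ = n⁻¹) ∧
      (ζ * n * ζ⁻¹ = x * n ∨ ζ * n * ζ⁻¹ = (x * n)⁻¹) := by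
  obtain ⟨H, _, _, π, hπ, hk⟩ := g.exists_quo
  have ord : ∀ c : J, (c : G) * c = z → orderOf (π c) = 2 := fun c hc =>
    GW.inv_of_mul_self (by rw [← map_mul, hk]; exact Or.inr hc) fun e => by
      rcases (hk c).1 e with e1 | e1
      · exact g.z1 (by rw [← hc, e1, mul_one])
      · exact g.z1 (by rw [← hc, e1, g.zz])
  have eq : ∀ c d : J, (d : G) * d = z → π c = π d → (c : G) = d ∨ (c : G) = (d : G)⁻¹ := fun c d hd e => by
    have e1 : π (c * d⁻¹) = 1 := by rw [map_mul, map_inv, e, mul_inv_cancel]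
    rcases (hk _).1 e1 with e2 | e2
    · exact Or.inl (mul_inv_eq_one.1 e2)
    · exact Or.inr (by rw [inv_eq_mul hd g.zz]; exact mul_inv_eq_iff_eq_mul.1 e2)
  have hp : _root_.commutator H = ⊤ := by
    have h1 : _root_.commutator J = ⊤ := map_injective J.subtype_injective (by
      rw [map_subtype_commutator, g.comp.pqs.perfect, ← MonoidHom.range_eq_map, range_subtype])
    rw [← map_top_of_surjective π hπ, ← h1, commutator_def, commutator_def, map_commutator,
      map_top_of_surjective π hπ]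
  have hD : GW.Dihed H := by
    obtain ⟨R, hR, -⟩ := H42.exists_sylIn (p := 2) IsPGroup.of_bot (bot_le (a := J))
    obtain ⟨a, b, k, h⟩ := g.exists_Qd hR
    let P : Sylow 2 J := IsPGroup.toSylow (P := R.subgroupOf J) hR.isP.comap_subtype hR.ndvd
    let a' : J := ⟨a, hR.le h.ha⟩
    let b' : J := ⟨b, hR.le h.hb⟩
    have ba : b * a * (b * a) = z := by
      calc b * a * (b * a) = (b * a * b⁻¹) * (b * b) * a := by group
        _ = z := by rw [h.ba, h.bb, mul_assoc, ← g.cz a'.2, inv_mul_cancel_left]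
    have o1 := ord b' h.bb
    have o2 := ord (b' * a') ba
    have a1 : π a' ≠ 1 := fun e => by
      have e2 : a ^ 2 = 1 := by
        rcases (hk _).1 e with e1 | e1
        · rw [show a = 1 from e1, one_pow]
        · rw [show a = z from e1, sq, g.zz]
      have := Nat.le_of_dvd (by norm_num) (orderOf_dvd_of_pow_eq_one e2)
      rw [h.ord, pow_succ] at this
      have := Nat.pos_of_ne_zero (pow_ne_zero k (two_ne_zero))
      omega
    have e3 : π b' * π (b' * a') = π a' := by rw [map_mul, ← mul_assoc, GW.mul_self_of_inv o1, one_mul]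
    obtain ⟨e⟩ := S0206.result _ _ o1 o2 fun e => a1 (by rw [← e3, ← e, GW.mul_self_of_inv o1])
    have e4 : ((P.mapSurjective hπ : Sylow 2 H) : Subgroup H) = closure {π b', π (b' * a')} := by
      rw [Sylow.coe_mapSurjective]
      have k1 : π b' ∈ closure {π b', π (b' * a')} := subset_closure (Or.inl rfl)
      have k2 : π a' ∈ closure {π b', π (b' * a')} := e3 ▸ mul_mem k1 (subset_closure (Or.inr rfl))
      have k3 : ∀ c : J, (c : G) ∈ zpowers a → π c ∈ closure {π b', π (b' * a')} := by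
        rintro c ⟨i, hi⟩
        rw [show c = a' ^ i from Subtype.ext hi.symm, map_zpow]
        exact zpow_mem k2 i
      refine le_antisymm ?_ ((closure_le _).2 ?_)
      · rintro _ ⟨c, hc, rfl⟩
        rcases h.gen c hc with h1 | h1
        · exact k3 c h1
        · have := mul_mem k1 (k3 (b'⁻¹ * c) h1)
          rwa [← map_mul, mul_inv_cancel_left] at this
      · rintro _ (rfl | rfl)
        · exact ⟨b', h.hb, rfl⟩
        · exact ⟨b' * a', mul_mem h.hb h.ha, rfl⟩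
    refine ⟨P.mapSurjective hπ, _, ?_, ⟨(MulEquiv.subgroupCongr e4).trans e⟩⟩
    rw [e3]
    have := orderOf_pos (π a')
    have := mt orderOf_eq_one_iff.1 a1
    omega
  let x' : J := ⟨x, hx⟩
  let n' : J := ⟨n, hn⟩
  have nx : n * x = z * (x * n) := by
    rw [← mul_assoc, ← inv_eq_mul xx g.zz, ← inv, inv_mul_cancel_right]
  have xn : x * n * (x * n) = z := by
    calc x * n * (x * n) = x * (n * x * n⁻¹) * (n * n) := by group
      _ = z := by rw [inv, nn, mul_inv_cancel, one_mul]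
  have hs : GW.Refl (π x') (π n') := by
    refine ⟨ord n' nn, fun e => ?_, ?_⟩
    · have c : n * x = x * n := by
        rcases eq n' x' xx e with e1 | e1
        · rw [show n = x from e1]
        · rw [show n = x⁻¹ from e1, inv_mul_cancel, mul_inv_cancel]
      rw [c, mul_inv_cancel_right] at inv
      exact g.ne_inv xx inv
    · rw [← map_mul, ← map_mul, show n' * x' = ⟨z, g.mem⟩ * (x' * n') from Subtype.ext nx, map_mul π ⟨z, _⟩,
        (hk ⟨z, g.mem⟩).2 (Or.inr rfl), one_mul]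
  obtain ⟨ζ, h1, h2⟩ := g3_trans hD (g3_idx hp) (ord x' xx) hs
  obtain ⟨ζ, rfl⟩ := hπ ζ
  rw [← map_inv, ← map_mul, ← map_mul] at h1 h2
  rw [← map_mul] at h2
  exact ⟨ζ, ζ.2, eq _ n' nn h1, eq _ (x' * n') xn h2⟩

end Cfsg.Agent.IQ
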